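import Cfsg.Agent.Lib.Helper87.AG.Defs

set_option autoImplicit false

namespace Cfsg.Agent.Lib.Helper87.AG

open Cfsg Cfsg.Agent.Lib.Helper40 Cfsg.Agent.Lib.Helper52 Cfsg.Agent.Lib.Helper52.AG

variable {G : Type*} [Group G] [Finite G] {p : ℕ} [Fact p.Prime]

theorem ab_aux (P : Sylow p G) (D N : Subgroup G) (hN : N = Subgroup.normalizer (D : Set G))
    (hDP : D ≤ (P : Subgroup G)) (hSyl : ¬ p ∣ ((P : Subgroup G) ⊓ N).relIndex N) :
    ((P : Subgroup G) ⊓ Subgroup.centralizer (D : Set G) ≤ D ∧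
      (Cfsg.pPrimePCore p ↥N).map N.subtype = D ⊔ Subgroup.centralizer (D : Set G)) ∨
    ∃ D₁ : Subgroup G, D < D₁ ∧ D₁ ≤ (P : Subgroup G) ∧
      ∀ x ∈ N, ∃ c ∈ Subgroup.centralizer (D : Set G),
        ∃ a ∈ Subgroup.normalizer (D₁ : Set G), x = c * a := by
  have hDN : D ≤ N := by rw [hN]; exact Subgroup.le_normalizer
  have hCN : Subgroup.centralizer (D : Set G) ≤ N := by
    rw [hN]; exact Subgroup.centralizer_le_normalizer _
  have hUn : (D.subgroupOf N).Normal := by
    subst hN; exact Subgroup.normal_in_normalizer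
  have hU : IsPGroup p (D.subgroupOf N) := isPGroup_subgroupOf (P.2.to_le hDP)
  have hCeq := centralizer_subgroupOf_eq hDN
  have hCn : ((Subgroup.centralizer (D : Set G)).subgroupOf N).Normal := by
    rw [hCeq]; infer_instance
  set T : Sylow p N := sylowOfRelIndex (P.2.to_le inf_le_left) hSyl with hT
  have hTc : (T : Subgroup N) = ((P : Subgroup G) ⊓ N).subgroupOf N := coe_sylowOfRelIndex _ _
  by_cases hc : (T : Subgroup N) ⊓ KK p ((Subgroup.centralizer (D : Set G)).subgroupOf N)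
      = D.subgroupOf N
  · left
    have h1 := inf_centralizer_le T hc
    have h2 := KK_eq_sup hUn hU T hc
    have h3 := KK_eq_pPrimePCore hUn hU hCeq T h1
    constructor
    · rintro x ⟨hx1, hx2⟩
      rw [hTc] at h1
      exact h1 (x := ⟨x, hCN hx2⟩) ⟨⟨hx1, hCN hx2⟩, hx2⟩
    · rw [← h3, h2, Subgroup.map_sup, Subgroup.map_subgroupOf_eq_of_le hDN,
        Subgroup.map_subgroupOf_eq_of_le hCN]
  · right
    have hle : D.subgroupOf N ≤
        (T : Subgroup N) ⊓ KK p ((Subgroup.centralizer (D : Set G)).subgroupOf N) :=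
      le_inf (normal_pgroup_le_sylow hUn hU T) (pgroup_le_KK hUn hU)
    have hlt := lt_of_le_of_ne hle (Ne.symm hc)
    refine ⟨((T : Subgroup N) ⊓ KK p ((Subgroup.centralizer (D : Set G)).subgroupOf N)).map
      N.subtype, ?_, ?_, ?_⟩
    · have := (Subgroup.map_lt_map_iff_of_injective N.subtype_injective).2 hlt
      rwa [Subgroup.map_subgroupOf_eq_of_le hDN] at this
    · rintro _ ⟨t, ht, rfl⟩
      have h1 : t ∈ (T : Subgroup N) := ht.1
      rw [hTc, Subgroup.mem_subgroupOf] at h1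
      exact h1.1
    · intro x hx
      obtain ⟨c, hc', a, ha, hxa⟩ := frattini ((Subgroup.centralizer (D : Set G)).subgroupOf N) T
        ⟨x, hx⟩
      exact ⟨c, hc', a, coe_mem_normalizer_map ha, congrArg Subtype.val hxa⟩

/-- Copy the proof of `Cfsg.Agent.Lib.Helper52.AG.dichotomy`, with the left alternative in the form of S3072. -/
theorem dichotomy' (P : Sylow p G) (D : Subgroup G) (hDP : D ≤ (P : Subgroup G))
    (hSyl : ¬ p ∣ ((P : Subgroup G) ⊓ Subgroup.normalizer ((D : Subgroup G) : Set G)).relIndex (Subgroup.normalizer ((D : Subgroup G) : Set G))) :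
    ((P : Subgroup G) ⊓ Subgroup.centralizer ((D : Subgroup G) : Set G) ≤ D ∧
      (Cfsg.pPrimePCore p ↥(Subgroup.normalizer ((D : Subgroup G) : Set G))).map (Subgroup.normalizer ((D : Subgroup G) : Set G)).subtype = D ⊔ Subgroup.centralizer ((D : Subgroup G) : Set G)) ∨
    ∃ D₁ : Subgroup G, D < D₁ ∧ D₁ ≤ (P : Subgroup G) ∧
      ∀ x ∈ Subgroup.normalizer ((D : Subgroup G) : Set G), ∃ c ∈ Subgroup.centralizer ((D : Subgroup G) : Set G),
        ∃ a ∈ Subgroup.normalizer ((D₁ : Subgroup G) : Set G), x = c * a :=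
  ab_aux P D _ rfl hDP hSyl

end Cfsg.Agent.Lib.Helper87.AG
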