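import Cfsg.Agent.Lib.Helper87.AG.Defs

set_option autoImplicit false

namespace Cfsg.Agent.Lib.Helper87.AG

open Cfsg Cfsg.Agent.Lib.Helper40

/-- Proof: fix `m`, take a chain `c` from `S` to `m⁻¹ • S`; show by induction on `i` that
`∀ n, c i = n⁻¹ • S → T n`. Base: `S ⊓ cj n⁻¹ S = S ≠ ⊥`, so `T (n * 1)`. Step: `c i = n'⁻¹ • S` for some `n'`
(Sylow conjugacy), `T n'`, put `v = n * n'⁻¹`; conjugating `c i ⊓ c (i+1) ≠ ⊥` by `n'` gives `S ⊓ cj v⁻¹ S ≠ ⊥`. -/
theorem chain_induct {L : Type*} [Group L] [Finite L] {p : ℕ} [Fact p.Prime]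
    (hc : Cfsg.IsSylowChainConnected p L) (S : Sylow p L) (hS : (S : Subgroup L) ≠ ⊥)
    (T : L → Prop) (h1 : T 1)
    (hstep : ∀ v m : L, (S : Subgroup L) ⊓ cj v⁻¹ (S : Subgroup L) ≠ ⊥ → T m → T (v * m)) :
    ∀ m, T m := by
  intro m
  obtain ⟨n, c, hc0, hcl, -, hch⟩ := hc S (m⁻¹ • S)
  have hbot : ∀ (y : L) (A : Subgroup L), cj y A = ⊥ → A = ⊥ := by
    intro y A h
    exact (Subgroup.map_eq_bot_iff_of_injective A (MulAut.conj y).injective).mp h
  have key : ∀ i : Fin (n + 1), ∀ x : L, (c i : Subgroup L) = cj x⁻¹ (S : Subgroup L) → T x := by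
    intro i
    induction i using Fin.induction with
    | zero =>
      intro x hx
      rw [hc0] at hx
      have h2 := hstep x 1 (by rw [← hx, inf_idem]; exact hS) h1
      rwa [mul_one] at h2
    | succ i ih =>
      intro x hx
      obtain ⟨g, hg⟩ := MulAction.exists_smul_eq L S (c i.castSucc)
      have hy : (c i.castSucc : Subgroup L) = cj (g⁻¹)⁻¹ (S : Subgroup L) := by
        rw [← hg, inv_inv]; rfl
      have hTy := ih g⁻¹ hy
      have h3 : (S : Subgroup L) ⊓ cj (x * (g⁻¹)⁻¹)⁻¹ (S : Subgroup L) ≠ ⊥ := by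
        have e1 : (S : Subgroup L) = cj g⁻¹ (c i.castSucc : Subgroup L) := by
          rw [hy, inv_inv, cj_inv_cj]
        have e2 : cj (x * (g⁻¹)⁻¹)⁻¹ (S : Subgroup L) = cj g⁻¹ (c i.succ : Subgroup L) := by
          rw [hx, ← cj_mul]
          congr 1
          group
        rw [e2]
        conv_lhs => rw [e1]
        rw [← cj_inf]
        intro h
        exact (hch i).2 (hbot _ _ h)
      have h4 := hstep (x * (g⁻¹)⁻¹) g⁻¹ h3 hTy
      rwa [inv_mul_cancel_right] at h4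
  exact key (Fin.last n) m (by rw [hcl]; rfl)

end Cfsg.Agent.Lib.Helper87.AG
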