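import Cfsg.Agent.Lib.Helper87.AG.Defs
import Cfsg.Agent.Lib.Helper87.AG.CC1

set_option autoImplicit false

namespace Cfsg.Agent.Lib.Helper87.AG

open Cfsg Cfsg.Agent.Lib.Helper40

variable {G : Type*} [Group G] [Finite G] {p : ℕ} [Fact p.Prime]

theorem cc2_aux (P : Sylow p G) (D N : Subgroup G)
    (hN : N = Subgroup.normalizer ((D : Subgroup G) : Set G)) [hn : (D.subgroupOf N).Normal]
    (hDP : D < (P : Subgroup G)) (hSyl : ¬ p ∣ ((P : Subgroup G) ⊓ N).relIndex N)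
    (hc : Cfsg.IsSylowChainConnected p (↥N ⧸ D.subgroupOf N))
    (T : G → Prop) (h1 : T 1)
    (hstep : ∀ v m : G, v ∈ N → m ∈ N →
      (∃ E : Subgroup G, D < E ∧ E ≤ (P : Subgroup G) ∧ cj v⁻¹ E ≤ (P : Subgroup G)) →
        T m → T (v * m)) :
    ∀ m ∈ N, T m := by
  have hs : Function.Surjective (QuotientGroup.mk' (D.subgroupOf N)) :=
    QuotientGroup.mk'_surjective _
  let S₀ : Sylow p N := Cfsg.Agent.Lib.Helper52.sylowOfRelIndex (P.2.to_le inf_le_left) hSyl
  have hS₀ : (S₀ : Subgroup N) = ((P : Subgroup G) ⊓ N).subgroupOf N := rfl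
  let S : Sylow p (↥N ⧸ D.subgroupOf N) := S₀.mapSurjective hs
  have hSc : (S : Subgroup (↥N ⧸ D.subgroupOf N)) =
      (S₀ : Subgroup N).map (QuotientGroup.mk' (D.subgroupOf N)) := rfl
  have hmemS : ∀ x : N, QuotientGroup.mk' (D.subgroupOf N) x ∈ (S : Subgroup (↥N ⧸ D.subgroupOf N)) →
      (x : G) ∈ (P : Subgroup G) := by
    intro x hx
    rw [hSc] at hx
    obtain ⟨t, ht, htx⟩ := Subgroup.mem_map.mp hx
    rw [hS₀] at ht
    have htP : (t : G) ∈ (P : Subgroup G) := (Subgroup.mem_subgroupOf.mp ht).1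
    have h2 : t⁻¹ * x ∈ D.subgroupOf N := QuotientGroup.eq.mp htx
    have h3 : ((t : G))⁻¹ * (x : G) ∈ (P : Subgroup G) := hDP.le (Subgroup.mem_subgroupOf.mp h2)
    have h4 := (P : Subgroup G).mul_mem htP h3
    rwa [mul_inv_cancel_left] at h4
  have hone : ∀ x : N, QuotientGroup.mk' (D.subgroupOf N) x = 1 ↔ (x : G) ∈ D := by
    intro x
    exact (QuotientGroup.eq_one_iff x).trans Subgroup.mem_subgroupOf
  have hSne : (S : Subgroup (↥N ⧸ D.subgroupOf N)) ≠ ⊥ := by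
    have hlt := lt_inf_normalizer P.2 hDP
    rw [← hN] at hlt
    obtain ⟨s, hs1, hs2⟩ := SetLike.exists_of_lt hlt
    intro hbot
    have h5 : QuotientGroup.mk' (D.subgroupOf N) ⟨s, hs1.2⟩ ∈
        (S : Subgroup (↥N ⧸ D.subgroupOf N)) := by
      rw [hSc]
      exact Subgroup.mem_map.mpr ⟨⟨s, hs1.2⟩, by rw [hS₀]; exact Subgroup.mem_subgroupOf.mpr hs1, rfl⟩
    rw [hbot, Subgroup.mem_bot, hone] at h5
    exact hs2 h5
  have hnorm : ∀ v ∈ N, ∀ d : G, v * d * v⁻¹ ∈ D ↔ d ∈ D := by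
    intro v hv d
    rw [hN] at hv
    exact (Subgroup.mem_normalizer_iff.mp hv d).symm
  have key := chain_induct hc S hSne
    (fun l => ∀ n : N, QuotientGroup.mk' (D.subgroupOf N) n = l → T (n : G)) (by
      intro n hn1
      have hnD : (n : G) ∈ D := (hone n).mp hn1
      have h6 := hstep (n : G) 1 n.2 N.one_mem ⟨(P : Subgroup G), hDP, le_rfl, by
        rw [cj_eq_of_mem ((P : Subgroup G).inv_mem (hDP.le hnD))]⟩ h1
      rwa [mul_one] at h6) (by
      intro vb mb hne hTm n hnl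
      obtain ⟨v, rfl⟩ := hs vb
      have hm : QuotientGroup.mk' (D.subgroupOf N) (v⁻¹ * n) = mb := by
        rw [map_mul, hnl, map_inv, inv_mul_cancel_left]
      have hTm' := hTm (v⁻¹ * n) hm
      obtain ⟨⟨xb, hxb⟩, hxb1⟩ := Subgroup.ne_bot_iff_exists_ne_one.mp hne
      have hxb1' : xb ≠ 1 := fun h => hxb1 (Subtype.ext h)
      obtain ⟨s, rfl⟩ := hs xb
      have hsP : (s : G) ∈ (P : Subgroup G) := hmemS s hxb.1
      have hsD : (s : G) ∉ D := fun h => hxb1' ((hone s).mpr h)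
      have hw : QuotientGroup.mk' (D.subgroupOf N) (v * s * v⁻¹) ∈
          (S : Subgroup (↥N ⧸ D.subgroupOf N)) := by
        have h8 := mem_cj.mp hxb.2
        rw [inv_inv] at h8
        rw [map_mul, map_mul, map_inv]; exact h8
      have hwP : (v : G) * s * (v : G)⁻¹ ∈ (P : Subgroup G) := hmemS (v * s * v⁻¹) hw
      have hwD : (v : G) * s * (v : G)⁻¹ ∉ D := fun h => hsD ((hnorm v v.2 s).mp h)
      have hE : ∃ E : Subgroup G, D < E ∧ E ≤ (P : Subgroup G) ∧
          cj (v : G)⁻¹ E ≤ (P : Subgroup G) := by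
        refine ⟨D ⊔ Subgroup.zpowers ((v : G) * s * (v : G)⁻¹), ?_, ?_, ?_⟩
        · refine lt_of_le_of_ne le_sup_left ?_
          intro h
          apply hwD
          rw [h]
          exact (le_sup_right : Subgroup.zpowers ((v : G) * s * (v : G)⁻¹) ≤ _)
            (Subgroup.mem_zpowers _)
        · exact sup_le hDP.le (Subgroup.zpowers_le.mpr hwP)
        · rw [cj_le_iff]
          have hle : D ⊔ Subgroup.zpowers ((v : G) * s * (v : G)⁻¹) ≤
              (P : Subgroup G).comap (MulAut.conj (v : G)⁻¹).toMonoidHom := by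
            apply sup_le
            · intro d hd
              rw [Subgroup.mem_comap]
              show (v : G)⁻¹ * d * ((v : G)⁻¹)⁻¹ ∈ (P : Subgroup G)
              exact hDP.le ((hnorm (v : G)⁻¹ (N.inv_mem v.2) d).mpr hd)
            · rw [Subgroup.zpowers_le, Subgroup.mem_comap]
              show (v : G)⁻¹ * ((v : G) * s * (v : G)⁻¹) * ((v : G)⁻¹)⁻¹ ∈ (P : Subgroup G)
              have h9 : (v : G)⁻¹ * ((v : G) * s * (v : G)⁻¹) * ((v : G)⁻¹)⁻¹ = s := by group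
              rw [h9]; exact hsP
          intro a ha
          exact hle ha
      have h7 := hstep (v : G) ((v⁻¹ * n : N) : G) v.2 (v⁻¹ * n).2 hE hTm'
      have h10 : (v : G) * ((v⁻¹ * n : N) : G) = n := by simp
      rwa [h10] at h7)
  intro m hm
  exact key (QuotientGroup.mk' (D.subgroupOf N) ⟨m, hm⟩) ⟨m, hm⟩ rfl

/-- Apply `chain_induct` (rung CC1) to `L = N(D)/D`, `S` = image (`Sylow.mapSurjective`) of the Sylow subgroup
`Helper52.sylowOfRelIndex (P.2.to_le inf_le_left) hSyl` of `N(D)` (`coe_sylowOfRelIndex`), and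
`T' l := ∀ n ∈ N(D), mk n = l → T n` (`T' 1`: such `n` lies in `D ≤ P`, use `hstep n 1` with `E = P`). `S ≠ ⊥` by `Helper40.lt_inf_normalizer`. For the step: a nontrivial element of
`S ⊓ cj v̄⁻¹ S` is `mk s` with `s ∈ P ⊓ N(D)`, `s ∉ D`, `v s v⁻¹ ∈ P`; take `E = D ⊔ zpowers (v s v⁻¹)`. -/
theorem caseC (P : Sylow p G) (D : Subgroup G) (hDP : D < (P : Subgroup G))
    (hSyl : ¬ p ∣ ((P : Subgroup G) ⊓ Subgroup.normalizer ((D : Subgroup G) : Set G)).relIndex (Subgroup.normalizer ((D : Subgroup G) : Set G)))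
    (hc : Cfsg.IsSylowChainConnected p (↥(Subgroup.normalizer ((D : Subgroup G) : Set G)) ⧸ D.subgroupOf (Subgroup.normalizer ((D : Subgroup G) : Set G))))
    (T : G → Prop) (h1 : T 1)
    (hstep : ∀ v m : G, v ∈ Subgroup.normalizer ((D : Subgroup G) : Set G) → m ∈ Subgroup.normalizer ((D : Subgroup G) : Set G) →
      (∃ E : Subgroup G, D < E ∧ E ≤ (P : Subgroup G) ∧ cj v⁻¹ E ≤ (P : Subgroup G)) → T m → T (v * m)) :
    ∀ m ∈ Subgroup.normalizer ((D : Subgroup G) : Set G), T m := by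
  exact cc2_aux P D _ rfl hDP hSyl hc T h1 hstep

end Cfsg.Agent.Lib.Helper87.AG
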