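import Cfsg.Agent.Lib.Helper87.AG.Defs

set_option autoImplicit false

namespace Cfsg.Agent.Lib.Helper87.AG

open Cfsg Cfsg.Agent.Lib.Helper40

/-- chain-connectedness is invariant under isomorphism. -/
theorem chainConnected_of_equiv {G₁ G₂ : Type*} [Group G₁] [Group G₂] [Finite G₁] [Finite G₂]
    (p : ℕ) [Fact p.Prime] (e : G₁ ≃* G₂)
    (h : Cfsg.IsSylowChainConnected p G₁) : Cfsg.IsSylowChainConnected p G₂ := by
  intro S T
  have hs : Function.Surjective e.toMonoidHom := e.surjective
  have hs' : Function.Surjective e.symm.toMonoidHom := e.symm.surjective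
  have hback : ∀ U : Sylow p G₂, (U.mapSurjective hs').mapSurjective hs = U := by
    intro U
    apply Sylow.ext
    rw [Sylow.coe_mapSurjective, Sylow.coe_mapSurjective]
    ext x
    constructor
    · rintro ⟨y, ⟨z, hz, rfl⟩, rfl⟩
      have h1 : e.toMonoidHom (e.symm.toMonoidHom z) = z := e.apply_symm_apply z
      rw [h1]; exact hz
    · intro hx
      exact ⟨e.symm x, ⟨x, hx, rfl⟩, by simp⟩
  obtain ⟨n, c, h0, hl, hinf, hstep⟩ := h (S.mapSurjective hs') (T.mapSurjective hs')
  refine ⟨n, fun i => (c i).mapSurjective hs, ?_, ?_, ?_, ?_⟩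
  · show (c 0).mapSurjective hs = S
    rw [h0, hback]
  · show (c (Fin.last n)).mapSurjective hs = T
    rw [hl, hback]
  · intro i x hx
    rw [Sylow.coe_mapSurjective]
    have h1 : e.symm x ∈ ((S.mapSurjective hs' : Sylow p G₁) : Subgroup G₁) ⊓
        ((T.mapSurjective hs' : Sylow p G₁) : Subgroup G₁) := by
      rw [Sylow.coe_mapSurjective, Sylow.coe_mapSurjective]
      exact ⟨⟨x, hx.1, rfl⟩, ⟨x, hx.2, rfl⟩⟩
    exact ⟨e.symm x, hinf i h1, by simp⟩
  · intro i
    obtain ⟨hne, hbot⟩ := hstep i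
    constructor
    · intro heq
      apply hne
      apply Sylow.ext
      have h1 := congrArg (fun U : Sylow p G₂ => (U : Subgroup G₂)) heq
      simp only [Sylow.coe_mapSurjective] at h1
      exact Subgroup.map_injective e.injective h1
    · intro hb
      apply hbot
      rw [eq_bot_iff]
      intro x hx
      have h1 : e x ∈ (((c i.castSucc).mapSurjective hs : Sylow p G₂) : Subgroup G₂) ⊓
          (((c i.succ).mapSurjective hs : Sylow p G₂) : Subgroup G₂) := by
        rw [Sylow.coe_mapSurjective, Sylow.coe_mapSurjective]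
        exact ⟨⟨x, hx.1, rfl⟩, ⟨x, hx.2, rfl⟩⟩
      rw [hb, Subgroup.mem_bot] at h1
      rw [Subgroup.mem_bot]
      exact e.injective (by rw [h1, map_one])

end Cfsg.Agent.Lib.Helper87.AG
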