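import Cfsg.Agent.Lib.Helper87.AG.Defs

set_option autoImplicit false

namespace Cfsg.Agent.Lib.Helper87.AG

open Cfsg Cfsg.Agent.Lib.Helper40

theorem cj15_map_mem_pResidual {A B : Type*} [Group A] [Group B] (p : ℕ) (ε : A →* B)
    (hε : Function.Injective ε) {a : A} (ha : a ∈ pResidual p A) : ε a ∈ pResidual p B := by
  induction ha using Subgroup.closure_induction with
  | mem x hx =>
    refine Subgroup.subset_closure ?_
    show Nat.Coprime (orderOf (ε x)) p
    rw [orderOf_injective ε hε]
    exact hx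
  | one => rw [map_one]; exact Subgroup.one_mem _
  | mul x y _ _ hx hy => rw [map_mul]; exact Subgroup.mul_mem _ hx hy
  | inv x _ hx => rw [map_inv]; exact Subgroup.inv_mem _ hx

variable {G : Type*} [Group G] [Finite G] {p : ℕ} [Fact p.Prime]

theorem conj_relIndex (t : G) (P H : Subgroup G)
    (h : ¬ p ∣ (P ⊓ Subgroup.normalizer ((H : Subgroup G) : Set G)).relIndex (Subgroup.normalizer ((H : Subgroup G) : Set G))) :
    ¬ p ∣ (cj t P ⊓ Subgroup.normalizer ((cj t H : Subgroup G) : Set G)).relIndex (Subgroup.normalizer ((cj t H : Subgroup G) : Set G)) := by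
  rw [← Cfsg.Agent.Lib.Helper40.cj_normalizer, ← Cfsg.Agent.Lib.Helper40.cj_inf, Cfsg.Agent.Lib.Helper40.relIndex_cj]
  exact h

theorem conj_cent (t : G) (P H : Subgroup G) (h : P ⊓ Subgroup.centralizer ((H : Subgroup G) : Set G) ≤ H) :
    cj t P ⊓ Subgroup.centralizer ((cj t H : Subgroup G) : Set G) ≤ cj t H := by
  rw [← Cfsg.Agent.Lib.Helper40.cj_centralizer, ← Cfsg.Agent.Lib.Helper40.cj_inf]
  exact Cfsg.Agent.Lib.Helper40.cj_mono h

/-- hint: `pResidual` is the closure of the elements of order prime to `p`. -/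
theorem conj_res (t : G) (X : Subgroup G) (x : G)
    (hx : x ∈ (Cfsg.pResidual p ↥X).map X.subtype) :
    t * x * t⁻¹ ∈ (Cfsg.pResidual p ↥(cj t X)).map (cj t X).subtype := by
  obtain ⟨z, hz, rfl⟩ := hx
  let ε : ↥X →* ↥(cj t X) :=
    { toFun := fun a => ⟨t * (a : G) * t⁻¹, conj_mem_cj a.2⟩
      map_one' := by
        apply Subtype.ext
        show t * 1 * t⁻¹ = 1
        group
      map_mul' := fun a b => by
        apply Subtype.ext
        show t * ((a : G) * (b : G)) * t⁻¹ = (t * (a : G) * t⁻¹) * (t * (b : G) * t⁻¹)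
        group }
  have hε : Function.Injective ε := by
    intro a b hab
    have h1 : t * (a : G) * t⁻¹ = t * (b : G) * t⁻¹ := congrArg Subtype.val hab
    apply Subtype.ext
    exact mul_left_cancel (mul_right_cancel h1)
  exact ⟨ε z, cj15_map_mem_pResidual p ε hε hz, rfl⟩

end Cfsg.Agent.Lib.Helper87.AG
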