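import Cfsg.Agent.Lib.Helper87.AG.Defs
import Cfsg.Agent.Lib.Helper14.PConstrained

set_option autoImplicit false

namespace Cfsg.Agent.Lib.Helper87.AG

open Cfsg Cfsg.Agent.Lib.Helper40

/-- one inclusion -/
theorem ppc_le {G₁ G₂ : Type*} [Group G₁] [Group G₂] [Finite G₁] [Finite G₂]
    (p : ℕ) [Fact p.Prime] (e : G₁ ≃* G₂) :
    (Cfsg.pPrimePCore p G₁).map e.toMonoidHom ≤ Cfsg.pPrimePCore p G₂ := by
  rw [Cfsg.Agent.Lib.Helper52.AG.pPrimePCore_eq, Cfsg.Agent.Lib.Helper52.AG.pPrimePCore_eq]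
  apply Cfsg.Agent.Lib.Helper52.AG.le_KK
  · have hn : (Cfsg.Agent.Lib.Helper52.AG.KK p (Cfsg.pPrimeCore p G₁)).Normal := by
      unfold Cfsg.Agent.Lib.Helper52.AG.KK
      infer_instance
    exact hn.map _ e.surjective
  · rintro _ ⟨d, hd, rfl⟩
    obtain ⟨k, hk⟩ := Cfsg.Agent.Lib.Helper52.AG.pow_mem_of_mem_KK hd
    refine ⟨k, ?_⟩
    rw [← map_pow, ← Cfsg.Agent.Lib.Helper14.map_pPrimeCore e]
    exact ⟨_, hk, rfl⟩

/-- `O_{p',p}` is invariant under isomorphism. -/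
theorem map_pPrimePCore_equiv {G₁ G₂ : Type*} [Group G₁] [Group G₂] [Finite G₁] [Finite G₂]
    (p : ℕ) [Fact p.Prime] (e : G₁ ≃* G₂) :
    (Cfsg.pPrimePCore p G₁).map e.toMonoidHom = Cfsg.pPrimePCore p G₂ := by
  apply le_antisymm (ppc_le p e)
  intro x hx
  exact ⟨e.symm x, ppc_le p e.symm ⟨x, hx, rfl⟩, by simp⟩

end Cfsg.Agent.Lib.Helper87.AG
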