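import Cfsg.Agent.Lib.Helper87.AG.Defs
import Cfsg.Agent.Lib.Helper87.AG.PPC

set_option autoImplicit false

namespace Cfsg.Agent.Lib.Helper87.AG

open Cfsg Cfsg.Agent.Lib.Helper40

variable {G : Type*} [Group G] [Finite G] {p : ℕ} [Fact p.Prime]

/-- use `eN t H` (Defs) and `map_pPrimePCore_equiv` (rung PPC). -/
theorem conj_core (t : G) (H : Subgroup G)
    (h : (Cfsg.pPrimePCore p ↥(Subgroup.normalizer ((H : Subgroup G) : Set G))).map (Subgroup.normalizer ((H : Subgroup G) : Set G)).subtype = H ⊔ Subgroup.centralizer ((H : Subgroup G) : Set G)) :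
    (Cfsg.pPrimePCore p ↥(Subgroup.normalizer ((cj t H : Subgroup G) : Set G))).map (Subgroup.normalizer ((cj t H : Subgroup G) : Set G)).subtype =
      cj t H ⊔ Subgroup.centralizer ((cj t H : Subgroup G) : Set G) := by
  rw [← map_pPrimePCore_equiv p (eN t H), Subgroup.map_map]
  have e : (Subgroup.normalizer ((cj t H : Subgroup G) : Set G)).subtype.comp (eN t H).toMonoidHom =
      (MulAut.conj t).toMonoidHom.comp (Subgroup.normalizer ((H : Subgroup G) : Set G)).subtype := by
    ext n
    rfl
  rw [e, ← Subgroup.map_map, h, Subgroup.map_sup, ← cj_centralizer]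

end Cfsg.Agent.Lib.Helper87.AG
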