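import Cfsg.Agent.Lib.Helper87.AG.Defs
import Cfsg.Agent.Lib.Helper87.AG.CHN

set_option autoImplicit false

namespace Cfsg.Agent.Lib.Helper87.AG

open Cfsg Cfsg.Agent.Lib.Helper40

variable {G : Type*} [Group G] [Finite G] {p : ℕ} [Fact p.Prime]

omit [Finite G] in
theorem cj3_map (t : G) (H : Subgroup G) :
    (H.subgroupOf (Subgroup.normalizer ((H : Subgroup G) : Set G))).map (eN t H).toMonoidHom =
      (cj t H).subgroupOf (Subgroup.normalizer ((cj t H : Subgroup G) : Set G)) := by
  ext x
  rw [Subgroup.mem_subgroupOf, mem_cj]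
  constructor
  · rintro ⟨y, hy, rfl⟩
    have hy' : (y : G) ∈ H := Subgroup.mem_subgroupOf.1 hy
    have e : t⁻¹ * (((eN t H).toMonoidHom y : ↥(Subgroup.normalizer ((cj t H : Subgroup G) : Set G))) : G) * t
        = (y : G) := by
      show t⁻¹ * (t * (y : G) * t⁻¹) * t = (y : G)
      group
    rw [e]
    exact hy'
  · intro hx
    refine ⟨(eN t H).symm x, ?_, ?_⟩
    · exact Subgroup.mem_subgroupOf.2 (by rw [coe_eN_symm]; exact hx)
    · exact (eN t H).apply_symm_apply x

/-- use `eN t H` (Defs), `QuotientGroup.congr` and `chainConnected_of_equiv` (rung CHN). -/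
theorem conj_chain (t : G) (H : Subgroup G)
    (h : ¬ Cfsg.IsSylowChainConnected p (↥(Subgroup.normalizer ((H : Subgroup G) : Set G)) ⧸ H.subgroupOf (Subgroup.normalizer ((H : Subgroup G) : Set G)))) :
    ¬ Cfsg.IsSylowChainConnected p
      (↥(Subgroup.normalizer ((cj t H : Subgroup G) : Set G)) ⧸ (cj t H).subgroupOf (Subgroup.normalizer ((cj t H : Subgroup G) : Set G))) := by
  intro h'
  apply h
  exact chainConnected_of_equiv p
    (QuotientGroup.congr _ _ (eN t H) (cj3_map t H)).symm h'

end Cfsg.Agent.Lib.Helper87.AG
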