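import Cfsg.Agent.Lib.Helper87.AG.Defs

set_option autoImplicit false

namespace Cfsg.Agent.Lib.Helper87.AG

open Cfsg Cfsg.Agent.Lib.Helper40

variable {G : Type*} [Group G] [Finite G] {p : ℕ} [Fact p.Prime]

omit [Finite G] in
theorem cj4_normal_iff (X N : Subgroup G) :
    (X.subgroupOf N).Normal ↔ ∀ n ∈ N, ∀ x ∈ X, x ∈ N → n * x * n⁻¹ ∈ X := by
  constructor
  · intro h n hn x hx hxN
    have := h.conj_mem ⟨x, hxN⟩ (Subgroup.mem_subgroupOf.2 hx) ⟨n, hn⟩
    exact Subgroup.mem_subgroupOf.1 this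
  · intro h
    constructor
    intro x hx n
    exact Subgroup.mem_subgroupOf.2 (h n n.2 x (Subgroup.mem_subgroupOf.1 hx) x.2)

omit [Finite G] in
theorem cj4_normal (t : G) (H X : Subgroup G)
    (h : (X.subgroupOf (Subgroup.normalizer ((H : Subgroup G) : Set G))).Normal) :
    ((cj t X).subgroupOf (Subgroup.normalizer ((cj t H : Subgroup G) : Set G))).Normal := by
  rw [cj4_normal_iff] at h ⊢
  intro n hn x hx hxN
  rw [← cj_normalizer, mem_cj] at hn hxN
  rw [mem_cj] at hx ⊢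
  have := h _ hn _ hx hxN
  have e : t⁻¹ * (n * x * n⁻¹) * t = t⁻¹ * n * t * (t⁻¹ * x * t) * (t⁻¹ * n * t)⁻¹ := by group
  rw [e]
  exact this

/-- transport along conjugation (for the last clause apply the hypothesis to `cj t⁻¹ Y`). -/
theorem conj_min (t : G) (H X : Subgroup G)
    (h : H ≤ X ∧ X ≤ Subgroup.normalizer ((H : Subgroup G) : Set G) ∧
      ((X).subgroupOf (Subgroup.normalizer ((H : Subgroup G) : Set G))).Normal ∧ p ∣ (H).relIndex (X) ∧
      ∀ Y : Subgroup G, H ≤ Y → Y ≤ Subgroup.normalizer ((H : Subgroup G) : Set G) →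
        (Y.subgroupOf (Subgroup.normalizer ((H : Subgroup G) : Set G))).Normal → p ∣ (H).relIndex Y → X ≤ Y) :
    cj t H ≤ cj t X ∧ cj t X ≤ Subgroup.normalizer ((cj t H : Subgroup G) : Set G) ∧
      ((cj t X).subgroupOf (Subgroup.normalizer ((cj t H : Subgroup G) : Set G))).Normal ∧ p ∣ (cj t H).relIndex (cj t X) ∧
      ∀ Y : Subgroup G, cj t H ≤ Y → Y ≤ Subgroup.normalizer ((cj t H : Subgroup G) : Set G) →
        (Y.subgroupOf (Subgroup.normalizer ((cj t H : Subgroup G) : Set G))).Normal → p ∣ (cj t H).relIndex Y → cj t X ≤ Y := by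
  obtain ⟨h1, h2, h3, h4, h5⟩ := h
  refine ⟨cj_mono h1, ?_, cj4_normal t H X h3, ?_, ?_⟩
  · rw [← cj_normalizer]
    exact cj_mono h2
  · rw [relIndex_cj]
    exact h4
  · intro Y hY1 hY2 hY3 hY4
    have a1 : H ≤ cj t⁻¹ Y := by
      have := cj_mono (g := t⁻¹) hY1
      rwa [cj_inv_cj] at this
    have a2 : cj t⁻¹ Y ≤ Subgroup.normalizer ((H : Subgroup G) : Set G) := by
      have := cj_mono (g := t⁻¹) hY2
      rwa [cj_normalizer, cj_inv_cj] at this
    have a3 : ((cj t⁻¹ Y).subgroupOf (Subgroup.normalizer ((H : Subgroup G) : Set G))).Normal := by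
      have := cj4_normal t⁻¹ (cj t H) Y hY3
      rwa [cj_inv_cj] at this
    have a4 : p ∣ H.relIndex (cj t⁻¹ Y) := by
      have := relIndex_cj t⁻¹ (cj t H) Y
      rw [cj_inv_cj] at this
      rw [this]
      exact hY4
    have := cj_mono (g := t) (h5 _ a1 a2 a3 a4)
    rwa [cj_cj_inv] at this

end Cfsg.Agent.Lib.Helper87.AG
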