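import Cfsg.Agent.Lib.Helper87.AG.CJ15
import Cfsg.Agent.Lib.Helper87.AG.CJ2
import Cfsg.Agent.Lib.Helper87.AG.CJ3
import Cfsg.Agent.Lib.Helper87.AG.CJ4

set_option autoImplicit false

namespace Cfsg.Agent.Lib.Helper87.AG

open Cfsg Cfsg.Agent.Lib.Helper40 Cfsg.Agent.Lib.Helper52.AG

variable {G : Type*} [Group G]

section basic

variable {p : ℕ}

theorem RY.nil (P : Subgroup G) (A : Set G) : RY p P A 1 :=
  ⟨1, Subgroup.one_mem _, 1, 1, Subgroup.one_mem _, by simp, Dec.nil A⟩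

theorem RY.of_normalizer {P : Subgroup G} {y : G} (hy : y ∈ Subgroup.normalizer (P : Set G))
    (A : Set G) : RY p P A y :=
  ⟨1, Subgroup.one_mem _, 1, y, hy, by simp, Dec.nil A⟩

theorem RY.mono {P : Subgroup G} {A B : Set G} {g : G} (h : RY p P B g) (hAB : A ⊆ B) :
    RY p P A g := by
  obtain ⟨c, hc, g', y, hy, rfl, hd⟩ := h
  exact ⟨c, Subgroup.centralizer_le hAB hc, g', y, hy, rfl, hd.mono hAB⟩

theorem RY.centralizer_mul {P : Subgroup G} {A : Set G} {c g : G}
    (hc : c ∈ Subgroup.centralizer A) (h : RY p P A g) : RY p P A (c * g) := by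
  obtain ⟨c', hc', g', y, hy, rfl, hd⟩ := h
  exact ⟨c * c', Subgroup.mul_mem _ hc hc', g', y, hy, by group, hd⟩

end basic

variable [Finite G] {p : ℕ} [Fact p.Prime]

theorem Ess.conj {P H X : Subgroup G} (t : G) (ht : t ∈ Subgroup.normalizer (P : Set G))
    (h : Ess p P H X) : Ess p P (cj t H) (cj t X) := by
  obtain ⟨h1, h2, h3, h4, h5, h6⟩ := h
  have hP : cj t P = P := cj_eq_of_mem_normalizer ht
  refine ⟨?_, ?_, ?_, conj_core t H h4, conj_chain t H h5, conj_min t H X h6⟩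
  · rw [← hP]; exact cj_mono h1
  · have := conj_relIndex t P H h2
    rwa [hP] at this
  · have := conj_cent t P H h3
    rwa [hP] at this

theorem SStep.conj {P : Subgroup G} (t : G) (ht : t ∈ Subgroup.normalizer (P : Set G))
    {d : Subgroup G × Subgroup G} {x : G} (h : SStep p P d x) :
    SStep p P (cj t d.1, cj t d.2) (t * x * t⁻¹) :=
  ⟨h.1.conj t ht, conj_res t d.2 x h.2⟩

theorem dec_conj {P : Subgroup G} (y : G) (hy : y ∈ Subgroup.normalizer (P : Set G))
    {A : Set G} {g : G}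
    (h : Dec (fun d : Subgroup G × Subgroup G => d.1) (SStep p P) A g) :
    Dec (fun d : Subgroup G × Subgroup G => d.1) (SStep p P) (rc y A) (y⁻¹ * g * y) := by
  induction h with
  | nil A =>
    have e : y⁻¹ * 1 * y = 1 := by group
    rw [e]
    exact Dec.nil _
  | @cons A d x g hs hA _ ih =>
    have e : y⁻¹ * (x * g) * y = (y⁻¹ * x * y) * (y⁻¹ * g * y) := by group
    rw [e]
    refine Dec.cons (d := (cj y⁻¹ d.1, cj y⁻¹ d.2)) ?_ ?_ ?_
    · have := SStep.conj y⁻¹ (Subgroup.inv_mem _ hy) hs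
      simpa using this
    · show rc y A ⊆ ((cj y⁻¹ d.1 : Subgroup G) : Set G)
      rw [← rc_coe]
      exact rc_mono hA
    · have e2 : rc (y⁻¹ * x * y) (rc y A) = rc y (rc x A) := by
        rw [← rc_mul, ← rc_mul]
        congr 1
        group
      rw [e2]
      exact ih

theorem RY.trans {P : Subgroup G} {A : Set G} {g h : G} (h1 : RY p P A g)
    (h2 : RY p P (rc g A) h) : RY p P A (g * h) := by
  obtain ⟨c, hc, g', y, hy, rfl, hd⟩ := h1
  rw [rc_mul, rc_mul, rc_of_mem_centralizer hc] at h2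
  obtain ⟨c', hc', h', y', hy', rfl, hd'⟩ := h2
  refine ⟨c * ((g' * y) * c' * (g' * y)⁻¹), Subgroup.mul_mem _ hc ?_, g' * (y * h' * y⁻¹), y * y',
    Subgroup.mul_mem _ hy hy', by group, hd.trans ?_⟩
  · apply conj_mem_centralizer_of_rc
    rw [rc_mul]
    exact hc'
  · have := dec_conj y⁻¹ (Subgroup.inv_mem _ hy) hd'
    rw [rc_inv_rc] at this
    simpa using this

end Cfsg.Agent.Lib.Helper87.AG
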