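import Cfsg.Agent.Lib.Helper87.AG.Defs
import Cfsg.Agent.S3058

set_option autoImplicit false

namespace Cfsg.Agent.Lib.Helper87.AG

open Cfsg Cfsg.Agent.Lib.Helper40

variable {G : Type*} [Group G] [Finite G] {p : ℕ} [Fact p.Prime]

theorem d1a_aux {H : Type*} [Group H] [Finite H] (D' : Subgroup H) [D'.Normal]
    (hnc : ¬ Cfsg.IsSylowChainConnected p (H ⧸ D')) (K₁ K₂ : Subgroup H) [K₁.Normal] [K₂.Normal]
    (h1 : D' ≤ K₁) (h2 : D' ≤ K₂) (hp1 : p ∣ D'.relIndex K₁) (hp2 : p ∣ D'.relIndex K₂) :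
    p ∣ D'.relIndex (K₁ ⊓ K₂) := by
  have hcard : ∀ K : Subgroup H, Nat.card (K.map (QuotientGroup.mk' D')) = D'.relIndex K := by
    intro K
    rw [← Subgroup.relIndex_bot_left, ← Subgroup.relIndex_comap, MonoidHom.comap_bot,
      QuotientGroup.ker_mk']
  have hs : Function.Surjective (QuotientGroup.mk' D') := QuotientGroup.mk'_surjective D'
  have hn1 : (K₁.map (QuotientGroup.mk' D')).Normal := Subgroup.Normal.map inferInstance _ hs
  have hn2 : (K₂.map (QuotientGroup.mk' D')).Normal := Subgroup.Normal.map inferInstance _ hs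
  have h := Cfsg.Agent.S3058.result p hnc (K₁.map (QuotientGroup.mk' D'))
    (K₂.map (QuotientGroup.mk' D')) (by rw [hcard]; exact hp1) (by rw [hcard]; exact hp2)
  have hinf : K₁.map (QuotientGroup.mk' D') ⊓ K₂.map (QuotientGroup.mk' D') =
      (K₁ ⊓ K₂).map (QuotientGroup.mk' D') := by
    rw [← Subgroup.map_comap_eq_self_of_surjective hs
      (K₁.map (QuotientGroup.mk' D') ⊓ K₂.map (QuotientGroup.mk' D')), Subgroup.comap_inf,
      Subgroup.comap_map_eq_self (by rw [QuotientGroup.ker_mk']; exact h1),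
      Subgroup.comap_map_eq_self (by rw [QuotientGroup.ker_mk']; exact h2)]
  rw [hinf, hcard] at h
  exact h

/-- Apply `Cfsg.Agent.S3058.result` in `N(D)/D` to the images of `Y₁.subgroupOf N(D)`, `Y₂.subgroupOf N(D)`
(the image of the intersection is the intersection of the images since both contain `D`;
`card (image of Y) = D.relIndex Y`). -/
theorem adm_inf (D Y₁ Y₂ : Subgroup G)
    (hnc : ¬ Cfsg.IsSylowChainConnected p (↥(Subgroup.normalizer ((D : Subgroup G) : Set G)) ⧸ D.subgroupOf (Subgroup.normalizer ((D : Subgroup G) : Set G))))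
    (h₁ : Adm p D Y₁) (h₂ : Adm p D Y₂) : Adm p D (Y₁ ⊓ Y₂) := by
  obtain ⟨hD1, hN1, hn1, hp1⟩ := h₁
  obtain ⟨hD2, hN2, hn2, hp2⟩ := h₂
  have hsub : (Y₁ ⊓ Y₂).subgroupOf (Subgroup.normalizer ((D : Subgroup G) : Set G)) =
      Y₁.subgroupOf (Subgroup.normalizer ((D : Subgroup G) : Set G)) ⊓
        Y₂.subgroupOf (Subgroup.normalizer ((D : Subgroup G) : Set G)) := Subgroup.comap_inf _ _ _
  refine ⟨le_inf hD1 hD2, inf_le_left.trans hN1, ?_, ?_⟩
  · rw [hsub]; infer_instance
  · have h := d1a_aux (p := p) (D.subgroupOf (Subgroup.normalizer ((D : Subgroup G) : Set G))) hnc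
      (Y₁.subgroupOf (Subgroup.normalizer ((D : Subgroup G) : Set G)))
      (Y₂.subgroupOf (Subgroup.normalizer ((D : Subgroup G) : Set G)))
      (Subgroup.comap_mono hD1) (Subgroup.comap_mono hD2)
      (by rw [Subgroup.relIndex_subgroupOf hN1]; exact hp1)
      (by rw [Subgroup.relIndex_subgroupOf hN2]; exact hp2)
    rw [← hsub, Subgroup.relIndex_subgroupOf (inf_le_left.trans hN1)] at h
    exact h

end Cfsg.Agent.Lib.Helper87.AG
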