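import Cfsg.Agent.Lib.Helper87.AG.Defs
import Cfsg.Agent.Lib.Helper87.AG.D1A

set_option autoImplicit false

namespace Cfsg.Agent.Lib.Helper87.AG

open Cfsg Cfsg.Agent.Lib.Helper40

variable {G : Type*} [Group G] [Finite G] {p : ℕ} [Fact p.Prime]

/-- `Adm p D N(D)` holds (`D < P ⊓ N(D)` by `Helper40.lt_inf_normalizer`, a `p`-group); take `X` admissible of minimal
cardinality and use `adm_inf` (rung D1A). -/
theorem exists_min (P : Sylow p G) (D : Subgroup G) (hDP : D < (P : Subgroup G))
    (hnc : ¬ Cfsg.IsSylowChainConnected p (↥(Subgroup.normalizer ((D : Subgroup G) : Set G)) ⧸ D.subgroupOf (Subgroup.normalizer ((D : Subgroup G) : Set G)))) :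
    ∃ X : Subgroup G, D ≤ X ∧ X ≤ Subgroup.normalizer ((D : Subgroup G) : Set G) ∧
      ((X).subgroupOf (Subgroup.normalizer ((D : Subgroup G) : Set G))).Normal ∧ p ∣ (D).relIndex (X) ∧
      ∀ Y : Subgroup G, D ≤ Y → Y ≤ Subgroup.normalizer ((D : Subgroup G) : Set G) →
        (Y.subgroupOf (Subgroup.normalizer ((D : Subgroup G) : Set G))).Normal → p ∣ (D).relIndex Y → X ≤ Y := by
  have hN : Adm p D (Subgroup.normalizer ((D : Subgroup G) : Set G)) := by
    refine ⟨Subgroup.le_normalizer, le_rfl, ?_, ?_⟩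
    · rw [Subgroup.subgroupOf_self]; infer_instance
    · have hlt := lt_inf_normalizer P.2 hDP
      have hQ : IsPGroup p ↥((P : Subgroup G) ⊓ Subgroup.normalizer ((D : Subgroup G) : Set G)) :=
        P.2.to_le inf_le_left
      have h1 : p ∣ D.relIndex ((P : Subgroup G) ⊓ Subgroup.normalizer ((D : Subgroup G) : Set G)) := by
        obtain ⟨n, hn⟩ := hQ.index (D.subgroupOf _)
        cases n with
        | zero =>
          exfalso
          have h0 : D.relIndex ((P : Subgroup G) ⊓ Subgroup.normalizer ((D : Subgroup G) : Set G)) = 1 := by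
            simpa using hn
          exact absurd (Subgroup.relIndex_eq_one.mp h0) (not_le_of_gt hlt)
        | succ n =>
          show p ∣ (D.subgroupOf _).index
          rw [hn]; exact dvd_pow_self p (Nat.succ_ne_zero n)
      exact h1.trans ⟨_, (Subgroup.relIndex_mul_relIndex D _ _ hlt.le inf_le_right).symm⟩
  have hne : {X : Subgroup G | Adm p D X}.Nonempty := ⟨_, hN⟩
  obtain ⟨X, hX, hmin⟩ := WellFounded.has_min (wellFounded_lt (α := Subgroup G)) _ hne
  refine ⟨X, hX.1, hX.2.1, hX.2.2.1, hX.2.2.2, ?_⟩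
  intro Y h1 h2 h3 h4
  have hinf := adm_inf D X Y hnc hX ⟨h1, h2, h3, h4⟩
  by_contra hle
  apply hmin _ hinf
  exact lt_of_le_of_ne inf_le_left (fun h => hle (inf_eq_left.mp h))

end Cfsg.Agent.Lib.Helper87.AG
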