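import Cfsg.Agent.Lib.Helper87.AG.Defs

set_option autoImplicit false

namespace Cfsg.Agent.Lib.Helper87.AG

open Cfsg Cfsg.Agent.Lib.Helper40

variable {G : Type*} [Group G] [Finite G] {p : ℕ} [Fact p.Prime]

/-- `P ⊓ X` is a Sylow `p`-subgroup of the normal subgroup `X` of `N(D)` (since `P ⊓ N(D)` is one of `N(D)`), and
it is bigger than `D` as `p ∣ |X : D|`. Possibly useful: `Helper52.sylowOfRelIndex`, `Helper2.sylowInfNormal`. -/
theorem sylow_inf_X (P : Sylow p G) (D X : Subgroup G) (hDP : D ≤ (P : Subgroup G))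
    (hSyl : ¬ p ∣ ((P : Subgroup G) ⊓ Subgroup.normalizer ((D : Subgroup G) : Set G)).relIndex (Subgroup.normalizer ((D : Subgroup G) : Set G)))
    (hDX : D ≤ X) (hXN : X ≤ Subgroup.normalizer ((D : Subgroup G) : Set G))
    (hXn : (X.subgroupOf (Subgroup.normalizer ((D : Subgroup G) : Set G))).Normal) (hp : p ∣ D.relIndex X) :
    D < (P : Subgroup G) ⊓ X ∧ ¬ p ∣ ((P : Subgroup G) ⊓ X).relIndex X := by
  have h1 : ¬ p ∣ (P : Subgroup G).relIndex (Subgroup.normalizer ((D : Subgroup G) : Set G)) := by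
    rwa [Subgroup.inf_relIndex_right] at hSyl
  have h2 : ¬ p ∣ (P : Subgroup G).relIndex X :=
    Cfsg.Agent.Lib.Helper52.relIndex_step P.2 h1 hXN
      ((Subgroup.normal_subgroupOf_iff_le_normalizer hXN).1 hXn)
  have h3 : ¬ p ∣ ((P : Subgroup G) ⊓ X).relIndex X := by rwa [Subgroup.inf_relIndex_right]
  refine ⟨lt_of_le_of_ne (le_inf hDP hDX) ?_, h3⟩
  intro h
  rw [← h] at h3
  exact h3 hp

end Cfsg.Agent.Lib.Helper87.AG
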