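import Cfsg.Agent.Lib.Helper87.AG.Defs
import Cfsg.Agent.Lib.Helper40.PComp

set_option autoImplicit false

namespace Cfsg.Agent.Lib.Helper87.AG

open Cfsg Cfsg.Agent.Lib.Helper40

variable {G : Type*} [Group G] [Finite G] {p : ℕ} [Fact p.Prime]

/-- `X = O^p(X) (P ⊓ X)` when `P ⊓ X` is a Sylow `p`-subgroup of `X`.
Possibly useful: `Helper51 pResidual_sup_sylow` (Lib/Helper51/Amalgam3.lean), Lib/Helper2/PResidual.lean. -/
theorem mem_res_mul (P X : Subgroup G) (hP : IsPGroup p P) (h : ¬ p ∣ (P ⊓ X).relIndex X) :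
    ∀ k ∈ X, ∃ x ∈ (Cfsg.pResidual p ↥X).map X.subtype, ∃ s ∈ P ⊓ X, k = x * s := by
  intro k hk
  let Q : Sylow p X := Cfsg.Agent.Lib.Helper52.sylowOfRelIndex (hP.to_le inf_le_left) h
  obtain ⟨r, hr, u, hu, hru⟩ := sylow_mul_pResidual Q (⟨k, hk⟩ : X)⁻¹
  have hr' : (r : G) ∈ P ⊓ X := Subgroup.mem_subgroupOf.mp hr
  refine ⟨((u⁻¹ : X) : G), Subgroup.mem_map.mpr ⟨u⁻¹, Subgroup.inv_mem _ hu, rfl⟩,
    ((r⁻¹ : X) : G), ?_, ?_⟩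
  · exact Subgroup.inv_mem _ hr'
  · have h2 : (⟨k, hk⟩ : X) = u⁻¹ * r⁻¹ := by rw [← mul_inv_rev, ← hru, inv_inv]
    exact congrArg Subtype.val h2

end Cfsg.Agent.Lib.Helper87.AG
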