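import Cfsg.Agent.Lib.Helper87.AG.Defs

set_option autoImplicit false

namespace Cfsg.Agent.Lib.Helper87.AG

open Cfsg Cfsg.Agent.Lib.Helper40

variable {G : Type*} [Group G] [Finite G] {p : ℕ} [Fact p.Prime]

/-- Frattini argument in `N(D)`. Useful: `Helper52.frattini_elementwise` with `T = Helper52.sylowOfRelIndex
(P.2.to_le inf_le_left) hSyl`, `K = X.subgroupOf N(D)`, and `Helper52.AG.coe_mem_normalizer_map`
(see the end of the proof of `Helper52.AG.dichotomy`). -/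
theorem frattini_X (P : Sylow p G) (D X : Subgroup G) (hDP : D ≤ (P : Subgroup G))
    (hSyl : ¬ p ∣ ((P : Subgroup G) ⊓ Subgroup.normalizer ((D : Subgroup G) : Set G)).relIndex (Subgroup.normalizer ((D : Subgroup G) : Set G)))
    (hDX : D ≤ X) (hXN : X ≤ Subgroup.normalizer ((D : Subgroup G) : Set G))
    (hXn : (X.subgroupOf (Subgroup.normalizer ((D : Subgroup G) : Set G))).Normal) :
    ∀ m ∈ Subgroup.normalizer ((D : Subgroup G) : Set G), ∃ k ∈ X, ∃ n ∈ Subgroup.normalizer (((P : Subgroup G) ⊓ X : Subgroup G) : Set G), m = k * n := by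
  intro m hm
  obtain ⟨N, hN⟩ : ∃ N : Subgroup G, N = Subgroup.normalizer ((D : Subgroup G) : Set G) := ⟨_, rfl⟩
  rw [← hN] at hSyl hXN hXn hm
  let T : Sylow p N := Cfsg.Agent.Lib.Helper52.sylowOfRelIndex (P.2.to_le inf_le_left) hSyl
  have hT : (T : Subgroup N) = ((P : Subgroup G) ⊓ N).subgroupOf N := rfl
  obtain ⟨a, ha, c, hc, hac⟩ :=
    Cfsg.Agent.Lib.Helper52.frattini_elementwise T (X.subgroupOf N) (⟨m, hm⟩ : N)⁻¹
  have hmap : ((T : Subgroup N) ⊓ X.subgroupOf N).map N.subtype = (P : Subgroup G) ⊓ X := by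
    ext x
    constructor
    · rintro ⟨y, ⟨hy1, hy2⟩, rfl⟩
      rw [hT] at hy1
      exact ⟨(Subgroup.mem_subgroupOf.mp hy1).1, Subgroup.mem_subgroupOf.mp hy2⟩
    · rintro ⟨h1, h2⟩
      exact ⟨⟨x, hXN h2⟩, ⟨Subgroup.mem_subgroupOf.mpr ⟨h1, hXN h2⟩,
        Subgroup.mem_subgroupOf.mpr h2⟩, rfl⟩
  have ha' := Cfsg.Agent.Lib.Helper52.AG.coe_mem_normalizer_map ha
  rw [hmap] at ha'
  refine ⟨((c⁻¹ : N) : G), ?_, ((a⁻¹ : N) : G), ?_, ?_⟩
  · exact X.inv_mem (Subgroup.mem_subgroupOf.mp hc)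
  · exact Subgroup.inv_mem _ ha'
  · have h2 : (⟨m, hm⟩ : N) = c⁻¹ * a⁻¹ := by rw [← mul_inv_rev, ← hac, inv_inv]
    exact congrArg Subtype.val h2

end Cfsg.Agent.Lib.Helper87.AG
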