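import Cfsg.Statements.S3072
import Cfsg.Agent.Lib.Helper52.AG3

set_option autoImplicit false

/-! Ladder AG (S3072, strong Alperin-Goldschmidt): definitions.
`cj t H = t H t⁻¹`, `rc x A = x⁻¹ A x`, `Dec` are from `Cfsg.Agent.Lib.Helper40`. -/

namespace Cfsg.Agent.Lib.Helper87.AG

open Cfsg Cfsg.Agent.Lib.Helper40

variable {G : Type*} [Group G]

/-- The conditions of S3072 on a pair `(H, X)`. -/
def Ess (p : ℕ) (P H X : Subgroup G) : Prop :=
  H ≤ P ∧
  ¬ p ∣ (P ⊓ Subgroup.normalizer (H : Set G)).relIndex (Subgroup.normalizer (H : Set G)) ∧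
  P ⊓ Subgroup.centralizer (H : Set G) ≤ H ∧
  (Cfsg.pPrimePCore p ↥(Subgroup.normalizer (H : Set G))).map (Subgroup.normalizer (H : Set G)).subtype =
    H ⊔ Subgroup.centralizer (H : Set G) ∧
  ¬ Cfsg.IsSylowChainConnected p
      (↥(Subgroup.normalizer (H : Set G)) ⧸ H.subgroupOf (Subgroup.normalizer (H : Set G))) ∧
  (H ≤ X ∧ X ≤ Subgroup.normalizer (H : Set G) ∧
    (X.subgroupOf (Subgroup.normalizer (H : Set G))).Normal ∧ p ∣ H.relIndex X ∧
    ∀ Y : Subgroup G, H ≤ Y → Y ≤ Subgroup.normalizer (H : Set G) →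
      (Y.subgroupOf (Subgroup.normalizer (H : Set G))).Normal → p ∣ H.relIndex Y → X ≤ Y)

/-- an allowed step: `d = (H, X)` and `x ∈ O^p(X)`. -/
def SStep (p : ℕ) (P : Subgroup G) (d : Subgroup G × Subgroup G) (x : G) : Prop :=
  Ess p P d.1 d.2 ∧ x ∈ (Cfsg.pResidual p ↥d.2).map d.2.subtype

/-- `g = c x₁ ⋯ xₙ y` as in S3072. -/
def RY (p : ℕ) (P : Subgroup G) (A : Set G) (g : G) : Prop :=
  ∃ c ∈ Subgroup.centralizer A, ∃ g' y : G, y ∈ Subgroup.normalizer (P : Set G) ∧ g = c * g' * y ∧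
    Dec (fun d : Subgroup G × Subgroup G => d.1) (SStep p P) A g'

/-- `Y/D` is a normal subgroup of `N(D)/D` of order divisible by `p`. -/
def Adm (p : ℕ) (D Y : Subgroup G) : Prop :=
  D ≤ Y ∧ Y ≤ Subgroup.normalizer (D : Set G) ∧
    (Y.subgroupOf (Subgroup.normalizer (D : Set G))).Normal ∧ p ∣ D.relIndex Y

theorem conj_mem_normalizer_cj {t n : G} {H : Subgroup G}
    (hn : n ∈ Subgroup.normalizer (H : Set G)) :
    t * n * t⁻¹ ∈ Subgroup.normalizer ((cj t H : Subgroup G) : Set G) := by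
  rw [mem_normalizer_iff_cj_eq] at hn ⊢
  rw [cj_mul, cj_mul, cj_inv_cj, hn]

/-- conjugation by `t` as an isomorphism `N(H) ≃* N(t H t⁻¹)`. -/
def eN (t : G) (H : Subgroup G) : ↥(Subgroup.normalizer (H : Set G)) ≃*
    ↥(Subgroup.normalizer ((cj t H : Subgroup G) : Set G)) where
  toFun n := ⟨t * n * t⁻¹, conj_mem_normalizer_cj n.2⟩
  invFun n := ⟨t⁻¹ * n * t, by
    have := conj_mem_normalizer_cj (t := t⁻¹) n.2
    rw [cj_inv_cj] at this
    simpa using this⟩
  left_inv n := by ext; simp [mul_assoc]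
  right_inv n := by ext; simp [mul_assoc]
  map_mul' a b := by
    apply Subtype.ext
    show t * ((a : G) * (b : G)) * t⁻¹ = (t * (a : G) * t⁻¹) * (t * (b : G) * t⁻¹)
    group

@[simp] theorem coe_eN (t : G) (H : Subgroup G) (n : ↥(Subgroup.normalizer (H : Set G))) :
    ((eN t H n : ↥(Subgroup.normalizer ((cj t H : Subgroup G) : Set G))) : G) = t * n * t⁻¹ := rfl

@[simp] theorem coe_eN_symm (t : G) (H : Subgroup G)
    (n : ↥(Subgroup.normalizer ((cj t H : Subgroup G) : Set G))) :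
    (((eN t H).symm n : ↥(Subgroup.normalizer (H : Set G))) : G) = t⁻¹ * n * t := rfl

end Cfsg.Agent.Lib.Helper87.AG
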