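import Cfsg.Agent.Lib.Helper87.AG.Defs

set_option autoImplicit false

namespace Cfsg.Agent.Lib.Helper87.AG

open Cfsg Cfsg.Agent.Lib.Helper40

variable {G : Type*} [Group G] {p : ℕ}

/-- use `Dec.exists_fin` (Lib/Helper40/Dec.lean) and a case split `i = 0` / `i = j + 1`; unfold `SStep`, `Ess`. -/
theorem fin_of_RY (P : Subgroup G) (A : Set G) (g : G) (h : RY p P A g) :
    ∃ (n : ℕ) (H X : Fin n → Subgroup G) (x : Fin n → G) (c y : G),
      c ∈ Subgroup.centralizer A ∧ y ∈ Subgroup.normalizer ((P : Subgroup G) : Set G) ∧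
      g = c * (List.ofFn x).prod * y ∧
      ∀ i : Fin n,
        H i ≤ (P : Subgroup G) ∧
        ¬ p ∣ ((P : Subgroup G) ⊓ Subgroup.normalizer (H i : Set G)).relIndex (Subgroup.normalizer (H i : Set G)) ∧
        (P : Subgroup G) ⊓ Subgroup.centralizer (H i : Set G) ≤ H i ∧
        (Cfsg.pPrimePCore p ↥(Subgroup.normalizer (H i : Set G))).map (Subgroup.normalizer (H i : Set G)).subtype =
          H i ⊔ Subgroup.centralizer (H i : Set G) ∧
        ¬ Cfsg.IsSylowChainConnected p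
            (↥(Subgroup.normalizer (H i : Set G)) ⧸ (H i).subgroupOf (Subgroup.normalizer (H i : Set G))) ∧
        (H i ≤ X i ∧ X i ≤ Subgroup.normalizer (H i : Set G) ∧
          ((X i).subgroupOf (Subgroup.normalizer (H i : Set G))).Normal ∧ p ∣ (H i).relIndex (X i) ∧
          ∀ Y : Subgroup G, H i ≤ Y → Y ≤ Subgroup.normalizer (H i : Set G) →
            (Y.subgroupOf (Subgroup.normalizer (H i : Set G))).Normal → p ∣ (H i).relIndex Y → X i ≤ Y) ∧
        x i ∈ (Cfsg.pResidual p ↥(X i)).map (X i).subtype ∧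
        (fun a => (((List.ofFn x).take i.val).prod)⁻¹ * a * ((List.ofFn x).take i.val).prod) '' A ⊆ (H i : Set G) := by
  obtain ⟨c, hc, g', y, hy, rfl, hd⟩ := h
  obtain ⟨n, Q, x, hprod, hstep, h0, hsucc⟩ := hd.exists_fin
  refine ⟨n, fun i => (Q i).1, fun i => (Q i).2, x, c, y, hc, hy, by rw [hprod], ?_⟩
  intro i
  obtain ⟨⟨e1, e2, e3, e4, e5, e6⟩, hx⟩ := hstep i
  refine ⟨e1, e2, e3, e4, e5, e6, hx, ?_⟩
  obtain ⟨i, hi⟩ := i
  cases i with
  | zero =>
    simp only [List.take_zero, List.prod_nil, inv_one, one_mul, mul_one, Set.image_id']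
    exact h0 hi
  | succ j => exact hsucc ⟨j, by omega⟩ hi

end Cfsg.Agent.Lib.Helper87.AG
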