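import Cfsg.Agent.Lib.Helper87.AG.CLOS
import Cfsg.Agent.Lib.Helper87.AG.AB
import Cfsg.Agent.Lib.Helper87.AG.CC2
import Cfsg.Agent.Lib.Helper87.AG.D1B
import Cfsg.Agent.Lib.Helper87.AG.D2A
import Cfsg.Agent.Lib.Helper87.AG.D2B
import Cfsg.Agent.Lib.Helper87.AG.D2C

set_option autoImplicit false

namespace Cfsg.Agent.Lib.Helper87.AG

open Cfsg Cfsg.Agent.Lib.Helper40 Cfsg.Agent.Lib.Helper52.AG

variable {G : Type*} [Group G] [Finite G] {p : ℕ} [Fact p.Prime]

theorem conv' (P : Sylow p G) (n : ℕ)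
    (H : ∀ D : Subgroup G, FN P D → n ≤ Nat.card D →
      ∀ x ∈ Subgroup.normalizer (D : Set G), RY p (P : Subgroup G) (D : Set G) x)
    {A : Set G} {g : G} (h : Dec (adom P) (AStep P) A g)
    (hA : ∀ E : Subgroup G, A ⊆ E → n ≤ Nat.card E) : RY p (P : Subgroup G) A g := by
  induction h with
  | nil A => exact RY.nil _ A
  | @cons A Q y g hs hAQ _ ih =>
    have h1 : RY p (P : Subgroup G) (adom P Q : Set G) y :=
      H (adom P Q) ⟨inf_le_left, hs.2.1⟩ (hA _ hAQ) y hs.1
    refine (h1.mono hAQ).trans (ih ?_)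
    intro E hE
    have h2 : A ⊆ (cj y E : Subgroup G) := by
      intro a ha
      rw [SetLike.mem_coe, mem_cj]
      exact hE ⟨a, ha, rfl⟩
    rw [← card_cj y E]
    exact hA _ h2

theorem rc_eq_of_mem_normalizer {v : G} {D : Subgroup G}
    (hv : v ∈ Subgroup.normalizer (D : Set G)) : rc v (D : Set G) = D := by
  rw [rc_coe, cj_eq_of_mem_normalizer (Subgroup.inv_mem _ hv)]

theorem main_claim' (P : Sylow p G) : ∀ (n : ℕ) (D : Subgroup G),
    Nat.card (P : Subgroup G) - Nat.card D = n → FN P D →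
    ∀ x ∈ Subgroup.normalizer (D : Set G), RY p (P : Subgroup G) (D : Set G) x := by
  intro n
  induction n using Nat.strong_induction_on with
  | _ n IH =>
    intro D hn hD x hx
    have big : ∀ (E : Subgroup G) (a : G), D < E → E ≤ (P : Subgroup G) →
        rc a (E : Set G) ⊆ ((P : Subgroup G) : Set G) → RY p (P : Subgroup G) (E : Set G) a := by
      intro E a hlt hEP ha
      have hcard : Nat.card D < Nat.card E := card_lt_of_lt hlt
      have hcard2 : Nat.card E ≤ Nat.card (P : Subgroup G) := Subgroup.card_le_of_le hEP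
      have hdec : Dec (adom P) (AStep P) (E : Set G) a := alperin_dec P _ a hEP ha
      apply conv' P (Nat.card E) _ hdec
      · intro F hF
        exact Subgroup.card_le_of_le hF
      · intro F hF hcF y hy
        exact IH (Nat.card (P : Subgroup G) - Nat.card F) (by omega) F rfl hF y hy
    by_cases hDP : D = (P : Subgroup G)
    · rw [hDP] at hx ⊢
      exact RY.of_normalizer hx _
    have hlt : D < (P : Subgroup G) := lt_of_le_of_ne hD.1 hDP
    rcases dichotomy' P D hD.1 hD.2 with ⟨hA1, hA2⟩ | ⟨D₁, hlt1, hD₁P, hfr⟩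
    · by_cases hc : Cfsg.IsSylowChainConnected p
          (↥(Subgroup.normalizer (D : Set G)) ⧸ D.subgroupOf (Subgroup.normalizer (D : Set G)))
      · refine caseC P D hlt hD.2 hc (fun m => RY p (P : Subgroup G) (D : Set G) m)
          (RY.nil _ _) ?_ x hx
        rintro v m hv hm ⟨E, hDE, hEP, hEv⟩ hTm
        have h1 : RY p (P : Subgroup G) (E : Set G) v :=
          big E v hDE hEP (by rw [rc_coe]; exact hEv)
        refine (h1.mono hDE.le).trans ?_
        rw [rc_eq_of_mem_normalizer hv]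
        exact hTm
      · obtain ⟨X, hX1, hX2, hX3, hX4, hX5⟩ := exists_min P D hlt hc
        obtain ⟨hDQ, hsyl⟩ := sylow_inf_X P D X hD.1 hD.2 hX1 hX2 hX3 hX4
        obtain ⟨k, hk, n', hn', rfl⟩ := frattini_X P D X hD.1 hD.2 hX1 hX2 hX3 x hx
        obtain ⟨x', hx', s, hs, rfl⟩ := mem_res_mul (P : Subgroup G) X P.2 hsyl k hk
        have hess : Ess p (P : Subgroup G) D X :=
          ⟨hD.1, hD.2, hA1, hA2, hc, hX1, hX2, hX3, hX4, hX5⟩
        have h1 : RY p (P : Subgroup G) (D : Set G) x' :=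
          ⟨1, Subgroup.one_mem _, x', 1, Subgroup.one_mem _, by simp,
            Dec.single (d := (D, X)) ⟨hess, hx'⟩ subset_rfl⟩
        have hx'N : x' ∈ Subgroup.normalizer (D : Set G) := by
          obtain ⟨z, -, rfl⟩ := hx'
          exact hX2 z.2
        have hsn : s * n' ∈ Subgroup.normalizer ((((P : Subgroup G) ⊓ X : Subgroup G)) : Set G) :=
          Subgroup.mul_mem _ (Subgroup.le_normalizer hs) hn'
        have h2 : RY p (P : Subgroup G) (((P : Subgroup G) ⊓ X : Subgroup G) : Set G) (s * n') :=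
          big _ _ hDQ inf_le_left
            ((rc_subset_of_mem_normalizer hsn subset_rfl).trans
              (show (((P : Subgroup G) ⊓ X : Subgroup G) : Set G) ⊆ ((P : Subgroup G) : Set G) from
                fun z hz => hz.1))
        rw [mul_assoc]
        refine h1.trans ?_
        rw [rc_eq_of_mem_normalizer hx'N]
        exact h2.mono hDQ.le
    · obtain ⟨c, hc, a, ha, rfl⟩ := hfr x hx
      apply RY.centralizer_mul hc
      exact (big D₁ a hlt1 hD₁P
        ((rc_subset_of_mem_normalizer ha subset_rfl).trans hD₁P)).mono hlt1.le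

/-- the strong **Alperin--Goldschmidt theorem**, `Dec` form. -/
theorem strong_AG (P : Sylow p G) (A : Set G) (g : G) (hA : A ⊆ (P : Set G))
    (hAg : (fun a => g⁻¹ * a * g) '' A ⊆ (P : Set G)) : RY p (P : Subgroup G) A g :=
  conv' P 0 (fun D hD _ => main_claim' P _ D rfl hD) (alperin_dec P A g hA hAg)
    (fun _ _ => Nat.zero_le _)

end Cfsg.Agent.Lib.Helper87.AG
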